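import Mathlib.Algebra.Homology.SpectralSequence.Basic
import Mathlib.Algebra.Category.ModuleCat.Abelian
import Mathlib.Algebra.Homology.ShortComplex.ModuleCat
import Mathlib.RingTheory.Length
import Mathlib.Algebra.Ring.NegOnePow
import Mathlib.Algebra.BigOperators.Group.Finset.Basic

set_option autoImplicit false
universe u

open CategoryTheory CategoryTheory.Limits

namespace Groth.Agent.Htor.H251.EulerChar

variable {A : Type u} [Ring A]

/-- additivity of the length, as natural numbers -/
lemma toNat_length_eq_add {M N P : Type u} [AddCommGroup M] [Module A M] [AddCommGroup N] [Module A N]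
    [AddCommGroup P] [Module A P] (f : N →ₗ[A] M) (g : M →ₗ[A] P) (hf : Function.Injective f)
    (hg : Function.Surjective g) (H : Function.Exact f g) (hM : IsFiniteLength A M) :
    IsFiniteLength A N ∧ IsFiniteLength A P ∧
      (Module.length A M).toNat = (Module.length A N).toNat + (Module.length A P).toNat := by
  have h := Module.length_eq_add_of_exact f g hf hg H
  rw [← Module.length_ne_top_iff] at hM ⊢
  rw [← Module.length_ne_top_iff]
  rw [h] at hM ⊢
  have h1 : Module.length A N ≠ ⊤ := fun h => hM (by rw [h, top_add])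
  have h2 : Module.length A P ≠ ⊤ := fun h => hM (by rw [h, add_top])
  exact ⟨h1, h2, ENat.toNat_add h1 h2⟩

/-- the Euler characteristic identity of a three term complex -/
lemma shortComplex_length (S : ShortComplex (ModuleCat.{u} A)) (hM : IsFiniteLength A S.X₂) :
    IsFiniteLength A S.homology ∧
      (Module.length A S.X₂).toNat = (Module.length A S.homology).toNat +
        (Module.length A (LinearMap.range S.f.hom)).toNat +
        (Module.length A (LinearMap.range S.g.hom)).toNat := by
  obtain ⟨h1, -, h2⟩ := toNat_length_eq_add (LinearMap.ker S.g.hom).subtype S.g.hom.rangeRestrict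
    Subtype.val_injective (LinearMap.surjective_rangeRestrict _)
    (fun x => by
      constructor
      · intro h
        exact ⟨⟨x, congrArg Subtype.val h⟩, rfl⟩
      · rintro ⟨y, rfl⟩
        exact Subtype.ext y.2) hM
  obtain ⟨-, h3, h4⟩ := toNat_length_eq_add (LinearMap.range S.moduleCatToCycles).subtype
    (LinearMap.range S.moduleCatToCycles).mkQ
    Subtype.val_injective (Submodule.mkQ_surjective _)
    (LinearMap.exact_subtype_mkQ _) h1
  let e : S.homology ≃ₗ[A] (LinearMap.ker S.g.hom ⧸ LinearMap.range S.moduleCatToCycles) :=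
    S.moduleCatHomologyIso.toLinearEquiv
  have h5 : Module.length A (LinearMap.range S.moduleCatToCycles) =
      Module.length A (LinearMap.range S.f.hom) := by
    have : LinearMap.range S.f.hom =
      (LinearMap.range S.moduleCatToCycles).map (LinearMap.ker S.g.hom).subtype := by
      rw [← LinearMap.range_comp]
      rfl
    rw [this]
    exact (Submodule.equivMapOfInjective _ Subtype.val_injective _).length_eq
  refine ⟨?_, ?_⟩
  · rw [← Module.length_ne_top_iff, e.length_eq, Module.length_ne_top_iff]
    exact h3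
  · rw [h2, h4, h5, e.length_eq]
    ring

variable {v : ℤ × ℤ}

/-- the length of the image of the differential -/
noncomputable def b (K : HomologicalComplex (ModuleCat.{u} A) (ComplexShape.up' v)) (pq : ℤ × ℤ) : ℕ :=
  (Module.length A (LinearMap.range (K.d pq (pq + v)).hom)).toNat

lemma length_X_eq (K : HomologicalComplex (ModuleCat.{u} A) (ComplexShape.up' v)) (pq : ℤ × ℤ)
    (h : IsFiniteLength A (K.X pq)) :
    IsFiniteLength A (K.homology pq) ∧
      (Module.length A (K.X pq)).toNat = (Module.length A (K.homology pq)).toNat +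
        b K (pq - v) + b K pq := by
  have hp : (ComplexShape.up' v).prev pq = pq - v :=
    (ComplexShape.up' v).prev_eq' (by simp)
  have hn : (ComplexShape.up' v).next pq = pq + v :=
    (ComplexShape.up' v).next_eq' (by simp)
  let e : K.homology pq ≃ₗ[A] (K.sc' (pq - v) pq (pq + v)).homology :=
    (K.homologyIsoSc' (pq - v) pq (pq + v) hp hn).toLinearEquiv
  obtain ⟨h1, h2⟩ := shortComplex_length (K.sc' (pq - v) pq (pq + v)) h
  refine ⟨?_, ?_⟩
  · rw [← Module.length_ne_top_iff, e.length_eq, Module.length_ne_top_iff]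
    exact h1
  · rw [e.length_eq]
    have h3 : b K (pq - v) = (Module.length A (LinearMap.range (K.d (pq - v) pq).hom)).toNat := by
      unfold b
      rw [sub_add_cancel]
    rw [h3]
    exact h2

lemma b_eq_zero (K : HomologicalComplex (ModuleCat.{u} A) (ComplexShape.up' v)) (pq : ℤ × ℤ)
    (h : IsZero (K.X pq) ∨ IsZero (K.X (pq + v))) : b K pq = 0 := by
  have : (K.d pq (pq + v)).hom = 0 := by
    rcases h with h | h
    · rw [h.eq_of_src (K.d pq (pq + v)) 0]
      rfl
    · rw [h.eq_of_tgt (K.d pq (pq + v)) 0]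
      rfl
  unfold b
  rw [this, LinearMap.range_zero, Module.length_bot]
  rfl

/-- The sign of total degree. -/
def sgn (pq : ℤ × ℤ) : ℤ := (((pq.1 + pq.2).negOnePow : ℤˣ) : ℤ)

/-- Euler characteristic of homology of a bigraded complex. -/
theorem sum_homology (K : HomologicalComplex (ModuleCat.{u} A) (ComplexShape.up' v))
    (hv : v.1 + v.2 = 1) (s : Finset (ℤ × ℤ))
    (hs : ∀ pq : ℤ × ℤ, pq ∉ s → IsZero (K.X pq))
    (hfl : ∀ pq : ℤ × ℤ, IsFiniteLength A (K.X pq)) :
    (s.sum fun pq => sgn pq * ((Module.length A (K.homology pq)).toNat : ℤ)) =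
      s.sum fun pq => sgn pq * ((Module.length A (K.X pq)).toNat : ℤ) := by
  have h1 : ∀ pq ∈ s, sgn pq * ((Module.length A (K.X pq)).toNat : ℤ) =
      sgn pq * ((Module.length A (K.homology pq)).toNat : ℤ) +
        (sgn pq * (b K pq : ℤ) + sgn pq * (b K (pq - v) : ℤ)) := by
    intro pq _
    rw [(length_X_eq K pq (hfl pq)).2]
    push_cast
    ring
  rw [Finset.sum_congr rfl h1, Finset.sum_add_distrib]
  have h2 : (s.sum fun pq => (sgn pq * (b K pq : ℤ) + sgn pq * (b K (pq - v) : ℤ))) = 0 := by
    rw [Finset.sum_add_distrib]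
    have hsg : ∀ pq : ℤ × ℤ, sgn pq = - sgn (pq - v) := by
      intro pq
      unfold sgn
      have : pq.1 + pq.2 = ((pq - v).1 + (pq - v).2) + 1 := by
        simp only [Prod.fst_sub, Prod.snd_sub]
        linarith
      rw [this, Int.negOnePow_succ]
      simp
    have h3 : (s.sum fun pq => sgn pq * (b K (pq - v) : ℤ)) =
        - ((s.image (fun pq => pq - v)).sum fun pq => sgn pq * (b K pq : ℤ)) := by
      rw [Finset.sum_image (fun x _ y _ h => sub_left_injective h), ← Finset.sum_neg_distrib]
      refine Finset.sum_congr rfl fun pq _ => ?_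
      rw [hsg pq]
      ring
    rw [h3]
    have h4 : ((s.image (fun pq => pq - v)).sum fun pq => sgn pq * (b K pq : ℤ)) =
        ((s ∩ s.image (fun pq => pq - v)).sum fun pq => sgn pq * (b K pq : ℤ)) := by
      symm
      apply Finset.sum_subset Finset.inter_subset_right
      intro pq h5 h6
      have h7 : pq ∉ s := fun h => h6 (Finset.mem_inter.2 ⟨h, h5⟩)
      rw [b_eq_zero K pq (Or.inl (hs pq h7))]
      simp
    have h5 : (s.sum fun pq => sgn pq * (b K pq : ℤ)) =
        ((s ∩ s.image (fun pq => pq - v)).sum fun pq => sgn pq * (b K pq : ℤ)) := by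
      symm
      apply Finset.sum_subset Finset.inter_subset_left
      intro pq h5 h6
      have h7 : pq + v ∉ s := fun h => h6 (Finset.mem_inter.2 ⟨h5,
        Finset.mem_image.2 ⟨pq + v, h, by simp⟩⟩)
      rw [b_eq_zero K pq (Or.inr (hs _ h7))]
      simp
    rw [h4, h5]
    ring
  rw [h2, add_zero]

/-- The statement for all pages. -/
theorem main (E : E₂CohomologicalSpectralSequence (ModuleCat.{u} A)) (s : Finset (ℤ × ℤ))
    (hs : ∀ pq : ℤ × ℤ, pq ∉ s → IsZero ((E.page 2).X pq))
    (hfl : ∀ pq : ℤ × ℤ, IsFiniteLength A ((E.page 2).X pq)) (r : ℤ) (hr : 2 ≤ r) :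
    (∀ pq : ℤ × ℤ, pq ∉ s → IsZero ((E.page r hr).X pq)) ∧
    (∀ pq : ℤ × ℤ, IsFiniteLength A ((E.page r hr).X pq)) ∧
    (s.sum fun pq => sgn pq * ((Module.length A ((E.page r hr).X pq)).toNat : ℤ)) =
      s.sum fun pq => sgn pq * ((Module.length A ((E.page 2).X pq)).toNat : ℤ) := by
  induction r, hr using Int.leInduction with
  | base => exact ⟨hs, hfl, rfl⟩
  | succ r hr ih =>
    obtain ⟨h1, h2, h3⟩ := ih
    have e : ∀ pq, (E.page r hr).homology pq ≃ₗ[A] (E.page (r + 1) (by lia)).X pq := fun pq =>
      (E.iso r (r + 1) pq rfl hr).toLinearEquiv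
    refine ⟨fun pq hpq => ?_, fun pq => ?_, ?_⟩
    · refine IsZero.of_iso ?_ (E.iso r (r + 1) pq rfl hr).symm
      have : IsZero ((E.page r hr).X pq) := h1 pq hpq
      rw [← (E.page r hr).exactAt_iff_isZero_homology]
      exact ShortComplex.exact_of_isZero_X₂ _ this
    · rw [← Module.length_ne_top_iff, ← (e pq).length_eq, Module.length_ne_top_iff]
      exact (length_X_eq (E.page r hr) pq (h2 pq)).1
    · rw [← h3, ← sum_homology (E.page r hr) (by simp) s h1 h2]
      refine Finset.sum_congr rfl fun pq _ => ?_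
      rw [(e pq).length_eq]

end Groth.Agent.Htor.H251.EulerChar
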