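import Groth.Prelude.Def_HTor
import Groth.Agent.Cohder.RelPCMon
import Groth.Agent.LoccohB.Theta
import Groth.Agent.Dcoh.DerPull
import Groth.Agent.Ega1.TildePullback

/-!
# The dictionary between complexes of `A`-modules and complexes of quasi-coherent modules on `Spec A`

* `isKProjective_of_vanishesAbove`, `isKFlat_tilde` for bounded above complexes of projective modules;
* `tildeTensorIso`: `(L₁ ⊗ L₂)^~ ≅ L₁^~ ⊗ L₂^~` for complexes;
* `nonempty_tilde_tensor`: for `L₁` bounded above projective,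
  `(L₁ ⊗ L₂)^~ ≅ L₁^~ ⊗ᴸ L₂^~` (`DCoh.LTensorCx`), two forms;
* `pullTildeIso`: `f^*(L^~) ≅ (B ⊗_A L)^~` for complexes, `f = Spec φ`;
* `nonempty_tilde_bc`: `(B ⊗_A L)^~ ≅ Lf^*(L^~)` for `L` bounded above projective.
-/

set_option autoImplicit false

universe u

open CategoryTheory CategoryTheory.Limits AlgebraicGeometry MonoidalCategory

attribute [local instance] HasDerivedCategory.standard

namespace Groth.Agent.Htor.H251.TildeDict

open Groth.Agent.LoccohB Groth.Agent.Cohder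

section

variable {A : Type u} [CommRing A]

/-- Termwise tilde, for a ring given as a type. -/
noncomputable abbrev tCx (A : Type u) [CommRing A] :
    DRing.Cx A ⥤ CochainComplex (Spec (CommRingCat.of A)).Modules ℤ :=
  (tilde.functor (CommRingCat.of A)).mapHomologicalComplex (ComplexShape.up ℤ)

theorem isKProjective_of_vanishesAbove (L : DRing.Cx A) (hL : ∀ i : ℤ, Projective (L.X i))
    (c : ∃ c : ℤ, DRing.VanishesAbove L c) : L.IsKProjective := by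
  obtain ⟨c, hc⟩ := c
  have : L.IsStrictlyLE c := by
    rw [CochainComplex.isStrictlyLE_iff]
    exact hc
  exact CochainComplex.isKProjective_of_projective L c

theorem isKFlat_tilde (L : DRing.Cx A) (hL : ∀ i : ℤ, Projective (L.X i))
    (c : ∃ c : ℤ, DRing.VanishesAbove L c) : DCoh.IsKFlat ((tCx A).obj L) := by
  have := isKProjective_of_vanishesAbove L hL c
  exact Theta.isKFlat_tildeCx (R := CommRingCat.of A) L

/-- `(L₁ ⊗ L₂)^~ ≅ L₁^~ ⊗ L₂^~` -/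
noncomputable def tildeTensorIso (L₁ L₂ : DRing.Cx A) :
    (tCx A).obj (HTor.tensorCx L₁ L₂) ≅ (DCoh.tensorCx.obj ((tCx A).obj L₁)).obj ((tCx A).obj L₂) :=
  ((TildeTen.ttCxNat (CommRingCat.of A)).app L₁).app L₂

/-- `(L₁ ⊗ L₂)^~ ≅ L₁^~ ⊗ᴸ L₂^~`, `L₁` projective bounded above. -/
theorem nonempty_tilde_tensor (L₁ L₂ : DRing.Cx A) (hL₁ : ∀ i : ℤ, Projective (L₁.X i))
    (c₁ : ∃ c : ℤ, DRing.VanishesAbove L₁ c) [DCoh.HasLTensorCx ((tCx A).obj L₂)] :
    Nonempty ((DCoh.LTensorCx ((tCx A).obj L₂)).obj (DCoh.toD _ ((tCx A).obj L₁)) ≅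
      DCoh.toD _ ((tCx A).obj (HTor.tensorCx L₁ L₂))) :=
  ⟨RelPCMon.cxIso _ _ (isKFlat_tilde L₁ hL₁ c₁) ≪≫ DerivedCategory.Q.mapIso (tildeTensorIso L₁ L₂).symm⟩

/-- `(L₂ ⊗ L₁)^~ ≅ L₂^~ ⊗ᴸ L₁^~`, `L₁` projective bounded above. -/
theorem nonempty_tilde_tensor' (L₁ L₂ : DRing.Cx A) (hL₁ : ∀ i : ℤ, Projective (L₁.X i))
    (c₁ : ∃ c : ℤ, DRing.VanishesAbove L₁ c) [DCoh.HasLTensorCx ((tCx A).obj L₁)] :
    Nonempty ((DCoh.LTensorCx ((tCx A).obj L₁)).obj (DCoh.toD _ ((tCx A).obj L₂)) ≅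
      DCoh.toD _ ((tCx A).obj (HTor.tensorCx L₂ L₁))) :=
  ⟨RelPCMon.cxIso' _ _ (isKFlat_tilde L₁ hL₁ c₁) ≪≫ DerivedCategory.Q.mapIso (tildeTensorIso L₂ L₁).symm⟩

end

section

variable {A B : Type u} [CommRing A] [CommRing B] (φ : A →+* B)

/-- `f^*(L^~) ≅ (B ⊗_A L)^~` for complexes, `f = Spec φ`. -/
noncomputable def pullTildeIso (L : DRing.Cx A) :
    (HTor.pullCx (Spec.map (CommRingCat.ofHom φ))).obj ((tCx A).obj L) ≅ (tCx B).obj (CohIII.bcCx φ L) :=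
  (NatIso.mapHomologicalComplex
    (Groth.Agent.Ega1.TildePullback.tildePullbackIso (CommRingCat.ofHom φ)) (ComplexShape.up ℤ)).app L

/-- `(B ⊗_A L)^~ ≅ Lf^*(L^~)` for `L` bounded above projective. -/
theorem nonempty_tilde_bc (L : DRing.Cx A) (hL : ∀ i : ℤ, Projective (L.X i))
    (c : ∃ c : ℤ, DRing.VanishesAbove L c) [DCoh.HasLpull (Spec.map (CommRingCat.ofHom φ))] :
    Nonempty ((DCoh.Lpull (Spec.map (CommRingCat.ofHom φ))).obj (DCoh.toD _ ((tCx A).obj L)) ≅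
      DCoh.toD _ ((tCx B).obj (CohIII.bcCx φ L))) :=
  ⟨Groth.Agent.Dcoh.DerPull.lpullIso _ _ (isKFlat_tilde L hL c) ≪≫
    DerivedCategory.Q.mapIso (pullTildeIso φ L)⟩

end

end Groth.Agent.Htor.H251.TildeDict
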